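import Cfsg.Agent.Lib.Helper86.Sp4.F4
import Cfsg.Prelude.Def_ChevG2

/-!
# Coded `14 × 14` matrices over the field with four elements

A natural number `N` codes the matrix `mk N` over `Cfsg.Lie.chevG2.Idx` whose entry `(i, j)` is the
base-4 digit of `N` at position `14 * idx i + idx j`.  Products of coded matrices are checked by
`decide +kernel`; `InG S N` says that `mk N` is (the matrix of) an element of the subgroup `S` of the
general linear group.
-/

set_option autoImplicit false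

namespace Cfsg.Agent.Lib.Helper29.G24Defs

open Cfsg.Agent.Lib.Helper86.Sp4F4 Cfsg.Lie

/-- the matrices -/
abbrev MatT : Type := Matrix chevG2.Idx chevG2.Idx F4

/-- the general linear group -/
abbrev GLT : Type := (Matrix chevG2.Idx chevG2.Idx F4)ˣ

/-- a digit as a field element -/
def dec (n : ℕ) : F4 := match n with
  | 0 => F4.z | 1 => F4.o | 2 => F4.w | _ => F4.v

/-- position of an index -/
def idx : chevG2.Idx → ℕ
  | Sum.inl i => i.val
  | Sum.inr j => 2 + j.val

/-- the matrix coded by `N` -/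
def mk (N : ℕ) : MatT :=
  Matrix.of fun i j => dec ((N / 4 ^ (14 * idx i + idx j)) % 4)

/-- code of the identity matrix -/
def idN : ℕ := 1 + 4 ^ 15 + 4 ^ 30 + 4 ^ 45 + 4 ^ 60 + 4 ^ 75 + 4 ^ 90 + 4 ^ 105 + 4 ^ 120 + 4 ^ 135 +
  4 ^ 150 + 4 ^ 165 + 4 ^ 180 + 4 ^ 195

set_option maxRecDepth 100000 in
theorem mk_idN : mk idN = 1 := by decide +kernel

/-- `mk N` is the matrix of an element of `S` -/
def InG (S : Subgroup GLT) (N : ℕ) : Prop := ∃ u ∈ S, (u : MatT) = mk N

theorem one_in (S : Subgroup GLT) : InG S idN := ⟨1, S.one_mem, by rw [Units.val_one, mk_idN]⟩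

theorem conj_mem {S : Subgroup GLT} {N G T N' : ℕ} (hz : InG S N) (hg : InG S G)
    (p1 : mk G * mk N = mk T) (p2 : mk T * mk G = mk N') : InG S N' := by
  obtain ⟨u, hu, e⟩ := hz
  obtain ⟨g, hg, e'⟩ := hg
  exact ⟨g * u * g, S.mul_mem (S.mul_mem hg hu) hg, by
    rw [Units.val_mul, Units.val_mul, e, e', p1, p2]⟩

theorem mul_in {S : Subgroup GLT} {A B C : ℕ} (ha : InG S A) (hb : InG S B)
    (p : mk A * mk B = mk C) : InG S C := by
  obtain ⟨u, hu, e⟩ := ha
  obtain ⟨v, hv, e'⟩ := hb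
  exact ⟨u * v, S.mul_mem hu hv, by rw [Units.val_mul, e, e', p]⟩

theorem mem_of_InG {S : Subgroup GLT} {N : ℕ} (h : InG S N) (g : GLT) (hg : (g : MatT) = mk N) :
    g ∈ S := by
  obtain ⟨u, hu, e⟩ := h
  have : g = u := Units.ext (hg.trans e.symm)
  rw [this]
  exact hu

/-- the unit coded by an involution -/
def unitOf (N : ℕ) (h : mk N * mk N = mk idN) : GLT :=
  ⟨mk N, mk N, by rw [h, mk_idN], by rw [h, mk_idN]⟩

theorem unitOf_val (N : ℕ) (h : mk N * mk N = mk idN) : ((unitOf N h : GLT) : MatT) = mk N := rfl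

section Pow

variable {M : Type*} [Monoid M]

theorem pow2_eq (t s : M) (h : t * t = s) : t ^ 2 = s := by rw [pow_two, h]

theorem pow3_eq (t t2 s : M) (h1 : t * t = t2) (h2 : t2 * t = s) : t ^ 3 = s := by
  rw [← h2, ← h1]
  simp only [pow_succ, pow_zero, one_mul, mul_assoc]

theorem pow4_eq (t t2 s : M) (h1 : t * t = t2) (h2 : t2 * t2 = s) : t ^ 4 = s := by
  rw [← h2, ← h1]
  simp only [pow_succ, pow_zero, one_mul, mul_assoc]

theorem pow5_eq (t t2 t4 s : M) (h1 : t * t = t2) (h2 : t2 * t2 = t4) (h3 : t4 * t = s) :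
    t ^ 5 = s := by
  rw [← h3, ← h2, ← h1]
  simp only [pow_succ, pow_zero, one_mul, mul_assoc]

theorem pow8_eq (t t2 t4 s : M) (h1 : t * t = t2) (h2 : t2 * t2 = t4) (h3 : t4 * t4 = s) :
    t ^ 8 = s := by
  rw [← h3, ← h2, ← h1]
  simp only [pow_succ, pow_zero, one_mul, mul_assoc]

theorem pow_swap_eq_one {Gp : Type*} [Group Gp] (a b : Gp) (m : ℕ) (h : (a * b) ^ m = 1) :
    (b * a) ^ m = 1 := by
  have e : b * a = a⁻¹ * (a * b) * a⁻¹⁻¹ := by group
  rw [e, conj_pow, h]
  group

theorem prod_replicate_flatten' {α : Type} (f : α → M) (w : List α) (m : ℕ) :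
    (((List.replicate m w).flatten).map f).prod = ((w.map f).prod) ^ m := by
  induction m with
  | zero => simp
  | succ m ih =>
    rw [List.replicate_succ, List.flatten_cons, List.map_append, List.prod_append, ih, pow_succ']

end Pow

end Cfsg.Agent.Lib.Helper29.G24Defs
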