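import Cfsg.Agent.Lib.Helper29.G24.Defs
import Cfsg.Agent.Lib.Helper29.G24.Data

/-! # Matrix products over `F₄` (generated), part 0 -/

set_option autoImplicit false
set_option maxRecDepth 100000

namespace Cfsg.Agent.Lib.Helper29.G24Data

open Cfsg.Agent.Lib.Helper29.G24Defs

theorem p0 : mk m0 * mk m0 = mk idN := by decide +kernel
theorem p4 : mk m40 * mk m35 = mk m41 := by decide +kernel
theorem p8 : mk m38 * mk m38 = mk idN := by decide +kernel
theorem p12 : mk m28 * mk m28 = mk idN := by decide +kernel
theorem p16 : mk m47 * mk m24 = mk m2 := by decide +kernel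
theorem p20 : mk m38 * mk m49 = mk m50 := by decide +kernel
theorem p24 : mk m51 * mk m28 = mk m52 := by decide +kernel
theorem p28 : mk m37 * mk m37 = mk idN := by decide +kernel
theorem p32 : mk m1 * mk m1 = mk idN := by decide +kernel
theorem p36 : mk idN * mk idN = mk idN := by decide +kernel
theorem p40 : mk m58 * mk m56 = mk idN := by decide +kernel
theorem p44 : mk m59 * mk m59 = mk idN := by decide +kernel
theorem p48 : mk m39 * mk m39 = mk idN := by decide +kernel
theorem p52 : mk m1 * mk m3 = mk m63 := by decide +kernel
theorem p56 : mk m1 * mk m5 = mk m65 := by decide +kernel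
theorem p60 : mk m67 * mk m67 = mk m68 := by decide +kernel
theorem p64 : mk m2 * mk m5 = mk m70 := by decide +kernel
theorem p68 : mk m72 * mk m71 = mk idN := by decide +kernel
theorem p72 : mk m74 * mk m74 = mk idN := by decide +kernel
theorem p76 : mk m2 * mk m77 = mk m78 := by decide +kernel
theorem p80 : mk m1 * mk m70 = mk m80 := by decide +kernel
theorem p84 : mk m83 * mk m81 = mk idN := by decide +kernel
theorem p88 : mk m85 * mk m85 = mk m86 := by decide +kernel
theorem p92 : mk m89 * mk m89 = mk m90 := by decide +kernel
theorem p96 : mk m4 * mk m78 = mk m91 := by decide +kernel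
theorem p100 : mk m78 * mk m93 = mk m94 := by decide +kernel
theorem p104 : mk m39 * mk m97 = mk m98 := by decide +kernel
theorem p108 : mk m95 * mk m100 = mk m101 := by decide +kernel
theorem p112 : mk m102 * mk m100 = mk m103 := by decide +kernel
theorem p116 : mk m97 * mk m2 = mk m105 := by decide +kernel
theorem p120 : mk m9 * mk m108 = mk m109 := by decide +kernel
theorem p124 : mk m108 * mk m11 = mk m111 := by decide +kernel
theorem p128 : mk m106 * mk m49 = mk m113 := by decide +kernel
theorem p132 : mk m103 * mk m34 = mk m115 := by decide +kernel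
theorem p136 : mk m19 * mk m20 = mk m18 := by decide +kernel
theorem p140 : mk m119 * mk m108 = mk m33 := by decide +kernel
theorem p144 : mk m122 * mk m100 = mk m8 := by decide +kernel
theorem p148 : mk m124 * mk m8 = mk m125 := by decide +kernel
theorem p152 : mk m108 * mk m7 = mk m127 := by decide +kernel
theorem p156 : mk m116 * mk m4 = mk m129 := by decide +kernel
theorem p160 : mk m108 * mk m29 = mk m132 := by decide +kernel
theorem p164 : mk m5 * mk m134 = mk m135 := by decide +kernel
theorem p168 : mk m0 * mk m137 = mk m138 := by decide +kernel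
theorem p172 : mk m139 * mk m29 = mk m140 := by decide +kernel
theorem p176 : mk m108 * mk m27 = mk m142 := by decide +kernel
theorem p180 : mk m13 * mk m49 = mk m144 := by decide +kernel
theorem p184 : mk m24 * mk m29 = mk m147 := by decide +kernel
theorem p188 : mk m30 * mk m32 = mk m31 := by decide +kernel

end Cfsg.Agent.Lib.Helper29.G24Data
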