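import Cfsg.Agent.Lib.Helper29.G24.Defs
import Cfsg.Agent.Lib.Helper29.G24.Data

/-! # Matrix products over `F₄` (generated), part 1 -/

set_option autoImplicit false
set_option maxRecDepth 100000

namespace Cfsg.Agent.Lib.Helper29.G24Data

open Cfsg.Agent.Lib.Helper29.G24Defs

theorem p1 : mk m8 * mk m8 = mk idN := by decide +kernel
theorem p5 : mk m20 * mk m20 = mk idN := by decide +kernel
theorem p9 : mk m38 * mk m43 = mk m44 := by decide +kernel
theorem p13 : mk m28 * mk m24 = mk m45 := by decide +kernel
theorem p17 : mk m19 * mk m19 = mk idN := by decide +kernel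
theorem p21 : mk m50 * mk m38 = mk m3 := by decide +kernel
theorem p25 : mk m31 * mk m31 = mk idN := by decide +kernel
theorem p29 : mk m37 * mk m54 = mk m55 := by decide +kernel
theorem p33 : mk m2 * mk m2 = mk idN := by decide +kernel
theorem p37 : mk m0 * mk m1 = mk m56 := by decide +kernel
theorem p41 : mk m0 * mk m2 = mk m46 := by decide +kernel
theorem p45 : mk m0 * mk m4 = mk m60 := by decide +kernel
theorem p49 : mk m1 * mk m2 = mk m61 := by decide +kernel
theorem p53 : mk m63 * mk m63 = mk idN := by decide +kernel
theorem p57 : mk m65 * mk m65 = mk m66 := by decide +kernel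
theorem p61 : mk m68 * mk m68 = mk m0 := by decide +kernel
theorem p65 : mk m70 * mk m70 = mk idN := by decide +kernel
theorem p69 : mk m3 * mk m5 = mk m73 := by decide +kernel
theorem p73 : mk m3 * mk m2 = mk m75 := by decide +kernel
theorem p77 : mk m3 * mk m78 = mk m79 := by decide +kernel
theorem p81 : mk m0 * mk m80 = mk m81 := by decide +kernel
theorem p85 : mk m3 * mk m67 = mk m84 := by decide +kernel
theorem p89 : mk m86 * mk m86 = mk m87 := by decide +kernel
theorem p93 : mk m90 * mk m89 = mk idN := by decide +kernel
theorem p97 : mk m91 * mk m4 = mk m24 := by decide +kernel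
theorem p101 : mk m94 * mk m78 = mk m95 := by decide +kernel
theorem p105 : mk m98 * mk m39 = mk m9 := by decide +kernel
theorem p109 : mk m101 * mk m95 = mk m26 := by decide +kernel
theorem p113 : mk m39 * mk m103 = mk m104 := by decide +kernel
theorem p117 : mk m105 * mk m97 = mk m106 := by decide +kernel
theorem p121 : mk m109 * mk m9 = mk m36 := by decide +kernel
theorem p125 : mk m111 * mk m108 = mk m38 := by decide +kernel
theorem p129 : mk m113 * mk m106 = mk m34 := by decide +kernel
theorem p133 : mk m115 * mk m103 = mk m116 := by decide +kernel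
theorem p137 : mk m108 * mk m20 = mk m118 := by decide +kernel
theorem p141 : mk m18 * mk m1 = mk m120 := by decide +kernel
theorem p145 : mk m108 * mk m8 = mk m123 := by decide +kernel
theorem p149 : mk m5 * mk m125 = mk m126 := by decide +kernel
theorem p153 : mk m127 * mk m108 = mk m22 := by decide +kernel
theorem p157 : mk m129 * mk m116 = mk m130 := by decide +kernel
theorem p161 : mk m132 * mk m108 = mk m14 := by decide +kernel
theorem p165 : mk m135 * mk m5 = mk m15 := by decide +kernel
theorem p169 : mk m138 * mk m0 = mk m17 := by decide +kernel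
theorem p173 : mk m19 * mk m140 = mk m141 := by decide +kernel
theorem p177 : mk m142 * mk m108 = mk m12 := by decide +kernel
theorem p181 : mk m144 * mk m13 = mk m145 := by decide +kernel
theorem p185 : mk m147 * mk m24 = mk m148 := by decide +kernel

end Cfsg.Agent.Lib.Helper29.G24Data
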