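import Cfsg.Agent.Lib.Helper29.G24.Defs
import Cfsg.Agent.Lib.Helper29.G24.Data

/-! # Matrix products over `F₄` (generated), part 2 -/

set_option autoImplicit false
set_option maxRecDepth 100000

namespace Cfsg.Agent.Lib.Helper29.G24Data

open Cfsg.Agent.Lib.Helper29.G24Defs

theorem p2 : mk m35 * mk m35 = mk idN := by decide +kernel
theorem p6 : mk m20 * mk m41 = mk m42 := by decide +kernel
theorem p10 : mk m44 * mk m38 = mk m1 := by decide +kernel
theorem p14 : mk m45 * mk m28 = mk m46 := by decide +kernel
theorem p18 : mk m35 * mk m19 = mk m48 := by decide +kernel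
theorem p22 : mk m18 * mk m18 = mk idN := by decide +kernel
theorem p26 : mk m31 * mk m52 = mk m53 := by decide +kernel
theorem p30 : mk m55 * mk m37 = mk m4 := by decide +kernel
theorem p34 : mk m3 * mk m3 = mk idN := by decide +kernel
theorem p38 : mk m56 * mk m56 = mk m57 := by decide +kernel
theorem p42 : mk m46 * mk m46 = mk idN := by decide +kernel
theorem p46 : mk m60 * mk m60 = mk idN := by decide +kernel
theorem p50 : mk m61 * mk m61 = mk m62 := by decide +kernel
theorem p54 : mk m1 * mk m4 = mk m64 := by decide +kernel
theorem p58 : mk m66 * mk m65 = mk idN := by decide +kernel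
theorem p62 : mk m2 * mk m4 = mk m69 := by decide +kernel
theorem p66 : mk m3 * mk m4 = mk m71 := by decide +kernel
theorem p70 : mk m73 * mk m73 = mk idN := by decide +kernel
theorem p74 : mk m2 * mk m75 = mk m76 := by decide +kernel
theorem p78 : mk m2 * mk m79 = mk m59 := by decide +kernel
theorem p82 : mk m81 * mk m81 = mk m82 := by decide +kernel
theorem p86 : mk m2 * mk m84 = mk m68 := by decide +kernel
theorem p90 : mk m87 * mk m85 = mk m88 := by decide +kernel
theorem p94 : mk m75 * mk m3 = mk m84 := by decide +kernel
theorem p98 : mk m1 * mk m24 = mk m92 := by decide +kernel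
theorem p102 : mk m1 * mk m95 = mk m96 := by decide +kernel
theorem p106 : mk m9 * mk m1 = mk m99 := by decide +kernel
theorem p110 : mk m24 * mk m26 = mk m25 := by decide +kernel
theorem p114 : mk m104 * mk m39 = mk m10 := by decide +kernel
theorem p118 : mk m3 * mk m106 = mk m107 := by decide +kernel
theorem p122 : mk m108 * mk m10 = mk m110 := by decide +kernel
theorem p126 : mk m38 * mk m3 = mk m112 := by decide +kernel
theorem p130 : mk m108 * mk m34 = mk m114 := by decide +kernel
theorem p134 : mk m38 * mk m116 = mk m117 := by decide +kernel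
theorem p138 : mk m118 * mk m108 = mk m35 := by decide +kernel
theorem p142 : mk m120 * mk m18 = mk m121 := by decide +kernel
theorem p146 : mk m123 * mk m108 = mk m23 := by decide +kernel
theorem p150 : mk m126 * mk m5 = mk m7 := by decide +kernel
theorem p154 : mk m108 * mk m6 = mk m128 := by decide +kernel
theorem p158 : mk m35 * mk m130 = mk m131 := by decide +kernel
theorem p162 : mk m8 * mk m34 = mk m133 := by decide +kernel
theorem p166 : mk m125 * mk m34 = mk m136 := by decide +kernel
theorem p170 : mk m15 * mk m17 = mk m16 := by decide +kernel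
theorem p174 : mk m141 * mk m19 = mk m27 := by decide +kernel
theorem p178 : mk m108 * mk m28 = mk m143 := by decide +kernel
theorem p182 : mk m2 * mk m145 = mk m146 := by decide +kernel
theorem p186 : mk m21 * mk m148 = mk m149 := by decide +kernel

end Cfsg.Agent.Lib.Helper29.G24Data
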