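import Cfsg.Agent.Lib.Helper29.G24.Defs
import Cfsg.Agent.Lib.Helper29.G24.Data

/-! # Matrix products over `F₄` (generated), part 3 -/

set_option autoImplicit false
set_option maxRecDepth 100000

namespace Cfsg.Agent.Lib.Helper29.G24Data

open Cfsg.Agent.Lib.Helper29.G24Defs

theorem p3 : mk m35 * mk m8 = mk m40 := by decide +kernel
theorem p7 : mk m42 * mk m20 = mk m43 := by decide +kernel
theorem p11 : mk m24 * mk m24 = mk idN := by decide +kernel
theorem p15 : mk m24 * mk m46 = mk m47 := by decide +kernel
theorem p19 : mk m48 * mk m35 = mk m49 := by decide +kernel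
theorem p23 : mk m28 * mk m18 = mk m51 := by decide +kernel
theorem p27 : mk m53 * mk m31 = mk m54 := by decide +kernel
theorem p31 : mk m5 * mk m5 = mk idN := by decide +kernel
theorem p35 : mk m4 * mk m4 = mk idN := by decide +kernel
theorem p39 : mk m57 * mk m57 = mk m58 := by decide +kernel
theorem p43 : mk m0 * mk m3 = mk m59 := by decide +kernel
theorem p47 : mk m0 * mk m5 = mk m39 := by decide +kernel
theorem p51 : mk m62 * mk m61 = mk idN := by decide +kernel
theorem p55 : mk m64 * mk m64 = mk idN := by decide +kernel
theorem p59 : mk m2 * mk m3 = mk m67 := by decide +kernel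
theorem p63 : mk m69 * mk m69 = mk idN := by decide +kernel
theorem p67 : mk m71 * mk m71 = mk m72 := by decide +kernel
theorem p71 : mk m4 * mk m5 = mk m74 := by decide +kernel
theorem p75 : mk m3 * mk m76 = mk m77 := by decide +kernel
theorem p79 : mk m3 * mk m59 = mk m0 := by decide +kernel
theorem p83 : mk m82 * mk m82 = mk m83 := by decide +kernel
theorem p87 : mk m1 * mk m68 = mk m85 := by decide +kernel
theorem p91 : mk m88 * mk m4 = mk m89 := by decide +kernel
theorem p95 : mk m68 * mk m2 = mk m78 := by decide +kernel
theorem p99 : mk m92 * mk m1 = mk m93 := by decide +kernel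
theorem p103 : mk m96 * mk m1 = mk m97 := by decide +kernel
theorem p107 : mk m99 * mk m9 = mk m100 := by decide +kernel
theorem p111 : mk m100 * mk m93 = mk m102 := by decide +kernel
theorem p115 : mk m9 * mk m10 = mk m11 := by decide +kernel
theorem p119 : mk m107 * mk m3 = mk m108 := by decide +kernel
theorem p123 : mk m110 * mk m108 = mk m37 := by decide +kernel
theorem p127 : mk m112 * mk m38 = mk m49 := by decide +kernel
theorem p131 : mk m114 * mk m108 = mk m19 := by decide +kernel
theorem p135 : mk m117 * mk m38 = mk m20 := by decide +kernel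
theorem p139 : mk m108 * mk m18 = mk m119 := by decide +kernel
theorem p143 : mk m100 * mk m121 = mk m122 := by decide +kernel
theorem p147 : mk m8 * mk m0 = mk m124 := by decide +kernel
theorem p151 : mk m7 * mk m8 = mk m6 := by decide +kernel
theorem p155 : mk m128 * mk m108 = mk m21 := by decide +kernel
theorem p159 : mk m131 * mk m35 = mk m29 := by decide +kernel
theorem p163 : mk m133 * mk m8 = mk m134 := by decide +kernel
theorem p167 : mk m136 * mk m125 = mk m137 := by decide +kernel
theorem p171 : mk m29 * mk m20 = mk m139 := by decide +kernel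
theorem p175 : mk m27 * mk m29 = mk m28 := by decide +kernel
theorem p179 : mk m143 * mk m108 = mk m13 := by decide +kernel
theorem p183 : mk m146 * mk m2 = mk m30 := by decide +kernel
theorem p187 : mk m149 * mk m21 = mk m32 := by decide +kernel

end Cfsg.Agent.Lib.Helper29.G24Data
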