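import Cfsg.Agent.Lib.Helper29.G24.Defs
import Cfsg.Agent.Lib.Helper29.G24.Data
import Cfsg.Agent.Lib.Helper29.G24.Prod0
import Cfsg.Agent.Lib.Helper29.G24.Prod1
import Cfsg.Agent.Lib.Helper29.G24.Prod2
import Cfsg.Agent.Lib.Helper29.G24.Prod3
import Cfsg.Agent.Lib.Helper29.SuzB.Data
import Cfsg.Prelude.Def_Spor_Suz

/-!
# The group `⟨a, …, f⟩` of the presented Suzuki group maps onto `G₂(4)`

The sub-presentation on `a, …, f` (generator `g` killed) maps to the Chevalley group `chevG2.group F4`
by explicit `14 × 14` matrices (`psi`); the images are products of root elements, and every root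
element is a product of images, so the range is the whole Chevalley group (`range_eq`).
All matrix products are checked in the files `G24/Prod*.lean`.
-/

set_option autoImplicit false

namespace Cfsg.Agent.Lib.Helper29.G24Main

open Cfsg.Agent.Lib.Helper29.G24Defs Cfsg.Agent.Lib.Helper29.G24Data
open Cfsg.Agent.Lib.Helper86.Sp4F4 Cfsg.Lie Cfsg.Spor

/-- codes of the root elements `x_r(t)` -/
def code : ℕ → F4 → ℕ
  | 0, .o => m6
  | 0, .w => m7
  | 0, .v => m8
  | 1, .o => m9
  | 1, .w => m10
  | 1, .v => m11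
  | 2, .o => m12
  | 2, .w => m13
  | 2, .v => m14
  | 3, .o => m15
  | 3, .w => m16
  | 3, .v => m17
  | 4, .o => m18
  | 4, .w => m19
  | 4, .v => m20
  | 5, .o => m21
  | 5, .w => m22
  | 5, .v => m23
  | 6, .o => m24
  | 6, .w => m25
  | 6, .v => m26
  | 7, .o => m27
  | 7, .w => m28
  | 7, .v => m29
  | 8, .o => m30
  | 8, .w => m31
  | 8, .v => m32
  | 9, .o => m33
  | 9, .w => m34
  | 9, .v => m35
  | 10, .o => m36
  | 10, .w => m37
  | 10, .v => m38
  | 11, .o => m0
  | 11, .w => m5
  | 11, .v => m39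
  | _, _ => idN

set_option maxRecDepth 100000 in
theorem xm_all : ∀ (r : Fin chevG2.nroots) (t : F4), chevG2.xMat F4 r t = mk (code r.val t) := by
  decide +kernel

theorem rootG (r : ℕ) (hr : r < 12) (t : F4)
    (hsq : mk (code r t) * mk (code r t) = mk idN) :
    InG (chevG2.group F4) (code r t) :=
  ⟨unitOf _ hsq, Subgroup.subset_closure ⟨⟨r, hr⟩, t, (xm_all ⟨r, hr⟩ t).symm⟩, rfl⟩

theorem rg_11_1 : InG (chevG2.group F4) m0 := rootG 11 (by decide) .o p0
theorem rg_0_3 : InG (chevG2.group F4) m8 := rootG 0 (by decide) .v p1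
theorem rg_9_3 : InG (chevG2.group F4) m35 := rootG 9 (by decide) .v p2
theorem gg_b_0 : InG (chevG2.group F4) m41 := conj_mem rg_0_3 rg_9_3 p3 p4
theorem rg_4_3 : InG (chevG2.group F4) m20 := rootG 4 (by decide) .v p5
theorem gg_b_1 : InG (chevG2.group F4) m43 := conj_mem gg_b_0 rg_4_3 p6 p7
theorem rg_10_3 : InG (chevG2.group F4) m38 := rootG 10 (by decide) .v p8
theorem gg_b_2 : InG (chevG2.group F4) m1 := conj_mem gg_b_1 rg_10_3 p9 p10
theorem rg_6_1 : InG (chevG2.group F4) m24 := rootG 6 (by decide) .o p11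
theorem rg_7_2 : InG (chevG2.group F4) m28 := rootG 7 (by decide) .w p12
theorem gg_c_0 : InG (chevG2.group F4) m46 := conj_mem rg_6_1 rg_7_2 p13 p14
theorem gg_c_1 : InG (chevG2.group F4) m2 := conj_mem gg_c_0 rg_6_1 p15 p16
theorem rg_4_2 : InG (chevG2.group F4) m19 := rootG 4 (by decide) .w p17
theorem gg_d_0 : InG (chevG2.group F4) m49 := conj_mem rg_4_2 rg_9_3 p18 p19
theorem gg_d_1 : InG (chevG2.group F4) m3 := conj_mem gg_d_0 rg_10_3 p20 p21
theorem rg_4_1 : InG (chevG2.group F4) m18 := rootG 4 (by decide) .o p22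
theorem gg_e_0 : InG (chevG2.group F4) m52 := conj_mem rg_4_1 rg_7_2 p23 p24
theorem rg_8_2 : InG (chevG2.group F4) m31 := rootG 8 (by decide) .w p25
theorem gg_e_1 : InG (chevG2.group F4) m54 := conj_mem gg_e_0 rg_8_2 p26 p27
theorem rg_10_2 : InG (chevG2.group F4) m37 := rootG 10 (by decide) .w p28
theorem gg_e_2 : InG (chevG2.group F4) m4 := conj_mem gg_e_1 rg_10_2 p29 p30
theorem rg_11_2 : InG (chevG2.group F4) m5 := rootG 11 (by decide) .w p31

/-- codes of the images of the generators -/
def gN : Suz.Gen → ℕ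
  | .a => m0
  | .b => m1
  | .c => m2
  | .d => m3
  | .e => m4
  | .f => m5
  | .g => idN

theorem sq : ∀ x : Suz.Gen, mk (gN x) * mk (gN x) = mk idN
  | .a => p0
  | .b => p32
  | .c => p33
  | .d => p34
  | .e => p35
  | .f => p31
  | .g => p36

/-- the images of the generators -/
def U (x : Suz.Gen) : GLT := unitOf (gN x) (sq x)

theorem U_val (x : Suz.Gen) : ((U x : GLT) : MatT) = mk (gN x) := rfl

theorem U_mem : ∀ x : Suz.Gen, U x ∈ chevG2.group F4
  | .a => mem_of_InG rg_11_1 (U .a) rfl
  | .b => mem_of_InG gg_b_2 (U .b) rfl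
  | .c => mem_of_InG gg_c_1 (U .c) rfl
  | .d => mem_of_InG gg_d_1 (U .d) rfl
  | .e => mem_of_InG gg_e_2 (U .e) rfl
  | .f => mem_of_InG rg_11_2 (U .f) rfl
  | .g => mem_of_InG (one_in _) (U .g) rfl

theorem U_mul_self (x : Suz.Gen) : U x * U x = 1 := by
  apply Units.ext
  rw [Units.val_mul, Units.val_one, U_val, sq x, mk_idN]

theorem U_inv (x : Suz.Gen) : (U x)⁻¹ = U x := inv_eq_of_mul_eq_one_left (U_mul_self x)

theorem pair_of (x y : Suz.Gen) (m : ℕ) (h : (mk (gN x) * mk (gN y)) ^ m = mk idN) :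
    (U x * U y) ^ m = 1 := by
  apply Units.ext
  rw [Units.val_pow_eq_pow_val, Units.val_mul, Units.val_one, U_val, U_val, h, mk_idN]

theorem pair_self (x : Suz.Gen) : (U x * U x) ^ 1 = 1 := by rw [pow_one, U_mul_self]

theorem pair_a_b : (U .a * U .b) ^ 5 = 1 :=
  pair_of .a .b 5 ((congrArg (fun t => t ^ 5) p37).trans (pow5_eq _ _ _ _ p38 p39 p40))
theorem pair_b_a : (U .b * U .a) ^ 5 = 1 := pow_swap_eq_one (U .a) (U .b) 5 pair_a_b
theorem pair_a_c : (U .a * U .c) ^ 2 = 1 :=
  pair_of .a .c 2 ((congrArg (fun t => t ^ 2) p41).trans (pow2_eq _ _ p42))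
theorem pair_c_a : (U .c * U .a) ^ 2 = 1 := pow_swap_eq_one (U .a) (U .c) 2 pair_a_c
theorem pair_a_d : (U .a * U .d) ^ 2 = 1 :=
  pair_of .a .d 2 ((congrArg (fun t => t ^ 2) p43).trans (pow2_eq _ _ p44))
theorem pair_d_a : (U .d * U .a) ^ 2 = 1 := pow_swap_eq_one (U .a) (U .d) 2 pair_a_d
theorem pair_a_e : (U .a * U .e) ^ 2 = 1 :=
  pair_of .a .e 2 ((congrArg (fun t => t ^ 2) p45).trans (pow2_eq _ _ p46))
theorem pair_e_a : (U .e * U .a) ^ 2 = 1 := pow_swap_eq_one (U .a) (U .e) 2 pair_a_e
theorem pair_a_f : (U .a * U .f) ^ 2 = 1 :=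
  pair_of .a .f 2 ((congrArg (fun t => t ^ 2) p47).trans (pow2_eq _ _ p48))
theorem pair_f_a : (U .f * U .a) ^ 2 = 1 := pow_swap_eq_one (U .a) (U .f) 2 pair_a_f
theorem pair_b_c : (U .b * U .c) ^ 3 = 1 :=
  pair_of .b .c 3 ((congrArg (fun t => t ^ 3) p49).trans (pow3_eq _ _ _ p50 p51))
theorem pair_c_b : (U .c * U .b) ^ 3 = 1 := pow_swap_eq_one (U .b) (U .c) 3 pair_b_c
theorem pair_b_d : (U .b * U .d) ^ 2 = 1 :=
  pair_of .b .d 2 ((congrArg (fun t => t ^ 2) p52).trans (pow2_eq _ _ p53))
theorem pair_d_b : (U .d * U .b) ^ 2 = 1 := pow_swap_eq_one (U .b) (U .d) 2 pair_b_d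
theorem pair_b_e : (U .b * U .e) ^ 2 = 1 :=
  pair_of .b .e 2 ((congrArg (fun t => t ^ 2) p54).trans (pow2_eq _ _ p55))
theorem pair_e_b : (U .e * U .b) ^ 2 = 1 := pow_swap_eq_one (U .b) (U .e) 2 pair_b_e
theorem pair_b_f : (U .b * U .f) ^ 3 = 1 :=
  pair_of .b .f 3 ((congrArg (fun t => t ^ 3) p56).trans (pow3_eq _ _ _ p57 p58))
theorem pair_f_b : (U .f * U .b) ^ 3 = 1 := pow_swap_eq_one (U .b) (U .f) 3 pair_b_f
theorem pair_c_d : (U .c * U .d) ^ 8 = 1 :=
  pair_of .c .d 8 ((congrArg (fun t => t ^ 8) p59).trans (pow8_eq _ _ _ _ p60 p61 p0))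
theorem pair_d_c : (U .d * U .c) ^ 8 = 1 := pow_swap_eq_one (U .c) (U .d) 8 pair_c_d
theorem pair_c_e : (U .c * U .e) ^ 2 = 1 :=
  pair_of .c .e 2 ((congrArg (fun t => t ^ 2) p62).trans (pow2_eq _ _ p63))
theorem pair_e_c : (U .e * U .c) ^ 2 = 1 := pow_swap_eq_one (U .c) (U .e) 2 pair_c_e
theorem pair_c_f : (U .c * U .f) ^ 2 = 1 :=
  pair_of .c .f 2 ((congrArg (fun t => t ^ 2) p64).trans (pow2_eq _ _ p65))
theorem pair_f_c : (U .f * U .c) ^ 2 = 1 := pow_swap_eq_one (U .c) (U .f) 2 pair_c_f
theorem pair_d_e : (U .d * U .e) ^ 3 = 1 :=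
  pair_of .d .e 3 ((congrArg (fun t => t ^ 3) p66).trans (pow3_eq _ _ _ p67 p68))
theorem pair_e_d : (U .e * U .d) ^ 3 = 1 := pow_swap_eq_one (U .d) (U .e) 3 pair_d_e
theorem pair_d_f : (U .d * U .f) ^ 2 = 1 :=
  pair_of .d .f 2 ((congrArg (fun t => t ^ 2) p69).trans (pow2_eq _ _ p70))
theorem pair_f_d : (U .f * U .d) ^ 2 = 1 := pow_swap_eq_one (U .d) (U .f) 2 pair_d_f
theorem pair_e_f : (U .e * U .f) ^ 2 = 1 :=
  pair_of .e .f 2 ((congrArg (fun t => t ^ 2) p71).trans (pow2_eq _ _ p72))
theorem pair_f_e : (U .f * U .e) ^ 2 = 1 := pow_swap_eq_one (U .e) (U .f) 2 pair_e_f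

theorem hcox : ∀ x ∈ coxNodes SuzB.edgesQ, ∀ y ∈ coxNodes SuzB.edgesQ,
    (U x * U y) ^ coxLabel SuzB.edgesQ x y = 1 := by
  intro x hx y hy
  cases x <;> cases y
  · rw [show coxLabel SuzB.edgesQ Suz.Gen.a Suz.Gen.a = 1 by decide]; exact pair_self .a
  · rw [show coxLabel SuzB.edgesQ Suz.Gen.a Suz.Gen.b = 5 by decide]; exact pair_a_b
  · rw [show coxLabel SuzB.edgesQ Suz.Gen.a Suz.Gen.c = 2 by decide]; exact pair_a_c
  · rw [show coxLabel SuzB.edgesQ Suz.Gen.a Suz.Gen.d = 2 by decide]; exact pair_a_d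
  · rw [show coxLabel SuzB.edgesQ Suz.Gen.a Suz.Gen.e = 2 by decide]; exact pair_a_e
  · rw [show coxLabel SuzB.edgesQ Suz.Gen.a Suz.Gen.f = 2 by decide]; exact pair_a_f
  · exact absurd hy (by decide)
  · rw [show coxLabel SuzB.edgesQ Suz.Gen.b Suz.Gen.a = 5 by decide]; exact pair_b_a
  · rw [show coxLabel SuzB.edgesQ Suz.Gen.b Suz.Gen.b = 1 by decide]; exact pair_self .b
  · rw [show coxLabel SuzB.edgesQ Suz.Gen.b Suz.Gen.c = 3 by decide]; exact pair_b_c
  · rw [show coxLabel SuzB.edgesQ Suz.Gen.b Suz.Gen.d = 2 by decide]; exact pair_b_d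
  · rw [show coxLabel SuzB.edgesQ Suz.Gen.b Suz.Gen.e = 2 by decide]; exact pair_b_e
  · rw [show coxLabel SuzB.edgesQ Suz.Gen.b Suz.Gen.f = 3 by decide]; exact pair_b_f
  · exact absurd hy (by decide)
  · rw [show coxLabel SuzB.edgesQ Suz.Gen.c Suz.Gen.a = 2 by decide]; exact pair_c_a
  · rw [show coxLabel SuzB.edgesQ Suz.Gen.c Suz.Gen.b = 3 by decide]; exact pair_c_b
  · rw [show coxLabel SuzB.edgesQ Suz.Gen.c Suz.Gen.c = 1 by decide]; exact pair_self .c
  · rw [show coxLabel SuzB.edgesQ Suz.Gen.c Suz.Gen.d = 8 by decide]; exact pair_c_d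
  · rw [show coxLabel SuzB.edgesQ Suz.Gen.c Suz.Gen.e = 2 by decide]; exact pair_c_e
  · rw [show coxLabel SuzB.edgesQ Suz.Gen.c Suz.Gen.f = 2 by decide]; exact pair_c_f
  · exact absurd hy (by decide)
  · rw [show coxLabel SuzB.edgesQ Suz.Gen.d Suz.Gen.a = 2 by decide]; exact pair_d_a
  · rw [show coxLabel SuzB.edgesQ Suz.Gen.d Suz.Gen.b = 2 by decide]; exact pair_d_b
  · rw [show coxLabel SuzB.edgesQ Suz.Gen.d Suz.Gen.c = 8 by decide]; exact pair_d_c
  · rw [show coxLabel SuzB.edgesQ Suz.Gen.d Suz.Gen.d = 1 by decide]; exact pair_self .d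
  · rw [show coxLabel SuzB.edgesQ Suz.Gen.d Suz.Gen.e = 3 by decide]; exact pair_d_e
  · rw [show coxLabel SuzB.edgesQ Suz.Gen.d Suz.Gen.f = 2 by decide]; exact pair_d_f
  · exact absurd hy (by decide)
  · rw [show coxLabel SuzB.edgesQ Suz.Gen.e Suz.Gen.a = 2 by decide]; exact pair_e_a
  · rw [show coxLabel SuzB.edgesQ Suz.Gen.e Suz.Gen.b = 2 by decide]; exact pair_e_b
  · rw [show coxLabel SuzB.edgesQ Suz.Gen.e Suz.Gen.c = 2 by decide]; exact pair_e_c
  · rw [show coxLabel SuzB.edgesQ Suz.Gen.e Suz.Gen.d = 3 by decide]; exact pair_e_d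
  · rw [show coxLabel SuzB.edgesQ Suz.Gen.e Suz.Gen.e = 1 by decide]; exact pair_self .e
  · rw [show coxLabel SuzB.edgesQ Suz.Gen.e Suz.Gen.f = 2 by decide]; exact pair_e_f
  · exact absurd hy (by decide)
  · rw [show coxLabel SuzB.edgesQ Suz.Gen.f Suz.Gen.a = 2 by decide]; exact pair_f_a
  · rw [show coxLabel SuzB.edgesQ Suz.Gen.f Suz.Gen.b = 3 by decide]; exact pair_f_b
  · rw [show coxLabel SuzB.edgesQ Suz.Gen.f Suz.Gen.c = 2 by decide]; exact pair_f_c
  · rw [show coxLabel SuzB.edgesQ Suz.Gen.f Suz.Gen.d = 2 by decide]; exact pair_f_d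
  · rw [show coxLabel SuzB.edgesQ Suz.Gen.f Suz.Gen.e = 2 by decide]; exact pair_f_e
  · rw [show coxLabel SuzB.edgesQ Suz.Gen.f Suz.Gen.f = 1 by decide]; exact pair_self .f
  · exact absurd hy (by decide)
  · exact absurd hx (by decide)
  · exact absurd hx (by decide)
  · exact absurd hx (by decide)
  · exact absurd hx (by decide)
  · exact absurd hx (by decide)
  · exact absurd hx (by decide)
  · exact absurd hx (by decide)

/-- the matrix of a letter -/
def MatL (l : Suz.Gen × Bool) : MatT := mk (gN l.1)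

theorem prod_single (l : Suz.Gen × Bool) : ([l].map MatL).prod = mk (gN l.1) := by
  rw [List.map_cons, List.map_nil, List.prod_cons, List.prod_nil, mul_one]
  rfl

theorem prod_cons_of (l : Suz.Gen × Bool) (w : List (Suz.Gen × Bool)) (N T : ℕ)
    (h : (w.map MatL).prod = mk N) (p : mk (gN l.1) * mk N = mk T) :
    ((l :: w).map MatL).prod = mk T := by
  rw [List.map_cons, List.prod_cons, h]
  exact p

theorem lift_word (w : List (Suz.Gen × Bool)) :
    FreeGroup.lift U (FreeGroup.mk w) = (w.map (fun l => U l.1)).prod := by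
  rw [FreeGroup.lift_mk]
  congr 1
  apply List.map_congr_left
  rintro ⟨x, b⟩ _
  cases b
  · exact U_inv x
  · rfl

theorem val_prodU (w : List (Suz.Gen × Bool)) :
    (((w.map (fun l => U l.1)).prod : GLT) : MatT) = (w.map MatL).prod := by
  induction w with
  | nil => rfl
  | cons l w ih =>
    rw [List.map_cons, List.prod_cons, List.map_cons, List.prod_cons, Units.val_mul, ih]
    rfl

theorem rel_of (w : List (Suz.Gen × Bool)) (h : (w.map MatL).prod = mk idN) :
    FreeGroup.lift U (FreeGroup.mk w) = 1 := by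
  rw [lift_word]
  apply Units.ext
  rw [val_prodU, h, mk_idN, Units.val_one]

theorem w1_prod : (([(.a, true), (.d, false), (.c, false), (.d, false), (.c, false), (.d, false), (.c, false), (.d, false), (.c, false)] : List (Suz.Gen × Bool)).map MatL).prod = mk idN :=
  prod_cons_of (.a, true) [(.d, false), (.c, false), (.d, false), (.c, false), (.d, false), (.c, false), (.d, false), (.c, false)] m0 idN
    (prod_cons_of (.d, false) [(.c, false), (.d, false), (.c, false), (.d, false), (.c, false), (.d, false), (.c, false)] m59 m0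
    (prod_cons_of (.c, false) [(.d, false), (.c, false), (.d, false), (.c, false), (.d, false), (.c, false)] m79 m59
    (prod_cons_of (.d, false) [(.c, false), (.d, false), (.c, false), (.d, false), (.c, false)] m78 m79
    (prod_cons_of (.c, false) [(.d, false), (.c, false), (.d, false), (.c, false)] m77 m78
    (prod_cons_of (.d, false) [(.c, false), (.d, false), (.c, false)] m76 m77
    (prod_cons_of (.c, false) [(.d, false), (.c, false)] m75 m76
    (prod_cons_of (.d, false) [(.c, false)] m2 m75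
    (prod_single (.c, false)) p73) p74) p75) p76) p77) p78) p79) p0

theorem u2_prod : (([(.a, true), (.b, true), (.c, true), (.f, true)] : List (Suz.Gen × Bool)).map MatL).prod = mk m81 :=
  prod_cons_of (.a, true) [(.b, true), (.c, true), (.f, true)] m80 m81
    (prod_cons_of (.b, true) [(.c, true), (.f, true)] m70 m80
    (prod_cons_of (.c, true) [(.f, true)] m5 m70
    (prod_single (.f, true)) p64) p80) p81

theorem w2_prod : (([(.a, true), (.b, true), (.c, true), (.f, true), (.a, true), (.b, true), (.c, true), (.f, true), (.a, true), (.b, true), (.c, true), (.f, true), (.a, true), (.b, true), (.c, true), (.f, true), (.a, true), (.b, true), (.c, true), (.f, true)] : List (Suz.Gen × Bool)).map MatL).prod = mk idN := by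
  have e : ([(.a, true), (.b, true), (.c, true), (.f, true), (.a, true), (.b, true), (.c, true), (.f, true), (.a, true), (.b, true), (.c, true), (.f, true), (.a, true), (.b, true), (.c, true), (.f, true), (.a, true), (.b, true), (.c, true), (.f, true)] : List (Suz.Gen × Bool)) = (List.replicate 5 [(.a, true), (.b, true), (.c, true), (.f, true)]).flatten := rfl
  rw [e, prod_replicate_flatten', u2_prod]
  exact pow5_eq _ _ _ _ p82 p83 p84

theorem u1_prod : (([(.b, true), (.c, true), (.d, true), (.c, true), (.d, true)] : List (Suz.Gen × Bool)).map MatL).prod = mk m85 :=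
  prod_cons_of (.b, true) [(.c, true), (.d, true), (.c, true), (.d, true)] m68 m85
    (prod_cons_of (.c, true) [(.d, true), (.c, true), (.d, true)] m84 m68
    (prod_cons_of (.d, true) [(.c, true), (.d, true)] m67 m84
    (prod_cons_of (.c, true) [(.d, true)] m3 m67
    (prod_single (.d, true)) p59) p85) p86) p87

theorem w3_prod : (([(.b, true), (.c, true), (.d, true), (.c, true), (.d, true), (.b, true), (.c, true), (.d, true), (.c, true), (.d, true), (.b, true), (.c, true), (.d, true), (.c, true), (.d, true), (.b, true), (.c, true), (.d, true), (.c, true), (.d, true), (.b, true), (.c, true), (.d, true), (.c, true), (.d, true), (.e, true), (.b, true), (.c, true), (.d, true), (.c, true), (.d, true), (.b, true), (.c, true), (.d, true), (.c, true), (.d, true), (.b, true), (.c, true), (.d, true), (.c, true), (.d, true), (.b, true), (.c, true), (.d, true), (.c, true), (.d, true), (.b, true), (.c, true), (.d, true), (.c, true), (.d, true), (.e, true), (.b, true), (.c, true), (.d, true), (.c, true),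 (.d, true), (.b, true), (.c, true), (.d, true), (.c, true), (.d, true), (.b, true), (.c, true), (.d, true), (.c, true), (.d, true), (.b, true), (.c, true), (.d, true), (.c, true), (.d, true), (.b, true), (.c, true), (.d, true), (.c, true), (.d, true), (.e, true)] : List (Suz.Gen × Bool)).map MatL).prod = mk idN := by
  have e : ([(.b, true), (.c, true), (.d, true), (.c, true), (.d, true), (.b, true), (.c, true), (.d, true), (.c, true), (.d, true), (.b, true), (.c, true), (.d, true), (.c, true), (.d, true), (.b, true), (.c, true), (.d, true), (.c, true), (.d, true), (.b, true), (.c, true), (.d, true), (.c, true), (.d, true), (.e, true), (.b, true), (.c, true), (.d, true), (.c, true), (.d, true), (.b, true), (.c, true), (.d, true), (.c, true), (.d, true), (.b, true), (.c, true), (.d, true), (.c, true), (.d, true), (.b, true), (.c, true), (.d, true), (.c, true), (.d, true), (.b, true), (.c, true), (.d, true), (.c, true), (.d, true), (.e, true), (.b, true), (.c, true), (.d, true), (.c, true), (.d, true),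 (.b, true), (.c, true), (.d, true), (.c, true), (.d, true), (.b, true), (.c, true), (.d, true), (.c, true), (.d, true), (.b, true), (.c, true), (.d, true), (.c, true), (.d, true), (.b, true), (.c, true), (.d, true), (.c, true), (.d, true), (.e, true)] : List (Suz.Gen × Bool)) = (List.replicate 3 ((List.replicate 5 [(.b, true), (.c, true), (.d, true), (.c, true), (.d, true)]).flatten ++ [(.e, true)])).flatten := rfl
  rw [e, prod_replicate_flatten', List.map_append, List.prod_append, prod_replicate_flatten', u1_prod,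
    pow5_eq _ _ _ _ p88 p89 p90, prod_single]
  exact (congrArg (fun t => t ^ 3) p91).trans (pow3_eq _ _ _ p92 p93)

theorem w4_prod : (([(.g, true)] : List (Suz.Gen × Bool)).map MatL).prod = mk idN := prod_single (.g, true)

theorem lift_rel : ∀ r ∈ coxRelators SuzB.edgesQ ∪ {r | r ∈ SuzB.extraWords.map FreeGroup.mk},
    FreeGroup.lift U r = 1 := by
  rintro r (⟨x, hx, y, hy, rfl⟩ | hr)
  · rw [map_pow, map_mul, FreeGroup.lift_apply_of, FreeGroup.lift_apply_of]
    exact hcox x hx y hy
  · obtain ⟨w, hw, rfl⟩ := List.mem_map.1 hr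
    simp only [SuzB.extraWords, List.mem_cons, List.not_mem_nil, or_false] at hw
    rcases hw with rfl | rfl | rfl | rfl
    · exact rel_of _ w1_prod
    · exact rel_of _ w2_prod
    · exact rel_of _ w3_prod
    · exact rel_of _ w4_prod

/-- the homomorphism from the sub-presentation to the general linear group -/
noncomputable def psi : CoxPresented Suz.Gen SuzB.edgesQ (SuzB.extraWords.map FreeGroup.mk) →* GLT :=
  PresentedGroup.toGroup lift_rel

theorem psi_of (x : Suz.Gen) : psi (PresentedGroup.of x) = U x := PresentedGroup.toGroup.of lift_rel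

theorem range_le : psi.range ≤ chevG2.group F4 := by
  rw [MonoidHom.range_eq_map, ← PresentedGroup.closure_range_of, MonoidHom.map_closure,
    Subgroup.closure_le]
  rintro _ ⟨_, ⟨x, rfl⟩, rfl⟩
  rw [psi_of]
  exact U_mem x

theorem gen_in (x : Suz.Gen) : InG psi.range (gN x) := ⟨U x, ⟨PresentedGroup.of x, psi_of x⟩, rfl⟩

theorem n6 : InG psi.range m39 := mul_in (gen_in .a) (gen_in .f) p47
theorem n7 : InG psi.range m84 := conj_mem (gen_in .c) (gen_in .d) p73 p94
theorem n8 : InG psi.range m78 := conj_mem n7 (gen_in .c) p86 p95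
theorem n9 : InG psi.range m24 := conj_mem n8 (gen_in .e) p96 p97
theorem n10 : InG psi.range m93 := conj_mem n9 (gen_in .b) p98 p99
theorem n11 : InG psi.range m95 := conj_mem n10 n8 p100 p101
theorem n12 : InG psi.range m97 := conj_mem n11 (gen_in .b) p102 p103
theorem n13 : InG psi.range m9 := conj_mem n12 n6 p104 p105
theorem n14 : InG psi.range m100 := conj_mem (gen_in .b) n13 p106 p107
theorem n15 : InG psi.range m26 := conj_mem n14 n11 p108 p109
theorem n16 : InG psi.range m25 := mul_in n9 n15 p110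
theorem n17 : InG psi.range m103 := conj_mem n10 n14 p111 p112
theorem n18 : InG psi.range m10 := conj_mem n17 n6 p113 p114
theorem n19 : InG psi.range m11 := mul_in n13 n18 p115
theorem n20 : InG psi.range m106 := conj_mem (gen_in .c) n12 p116 p117
theorem n21 : InG psi.range m108 := conj_mem n20 (gen_in .d) p118 p119
theorem n22 : InG psi.range m36 := conj_mem n21 n13 p120 p121
theorem n23 : InG psi.range m37 := conj_mem n18 n21 p122 p123
theorem n24 : InG psi.range m38 := conj_mem n19 n21 p124 p125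
theorem n25 : InG psi.range m49 := conj_mem (gen_in .d) n24 p126 p127
theorem n26 : InG psi.range m34 := conj_mem n25 n20 p128 p129
theorem n27 : InG psi.range m19 := conj_mem n26 n21 p130 p131
theorem n28 : InG psi.range m116 := conj_mem n26 n17 p132 p133
theorem n29 : InG psi.range m20 := conj_mem n28 n24 p134 p135
theorem n30 : InG psi.range m18 := mul_in n27 n29 p136
theorem n31 : InG psi.range m35 := conj_mem n29 n21 p137 p138
theorem n32 : InG psi.range m33 := conj_mem n30 n21 p139 p140
theorem n33 : InG psi.range m121 := conj_mem (gen_in .b) n30 p141 p142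
theorem n34 : InG psi.range m8 := conj_mem n33 n14 p143 p144
theorem n35 : InG psi.range m23 := conj_mem n34 n21 p145 p146
theorem n36 : InG psi.range m125 := conj_mem (gen_in .a) n34 p147 p148
theorem n37 : InG psi.range m7 := conj_mem n36 (gen_in .f) p149 p150
theorem n38 : InG psi.range m6 := mul_in n37 n34 p151
theorem n39 : InG psi.range m22 := conj_mem n37 n21 p152 p153
theorem n40 : InG psi.range m21 := conj_mem n38 n21 p154 p155
theorem n41 : InG psi.range m130 := conj_mem (gen_in .e) n28 p156 p157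
theorem n42 : InG psi.range m29 := conj_mem n41 n31 p158 p159
theorem n43 : InG psi.range m14 := conj_mem n42 n21 p160 p161
theorem n44 : InG psi.range m134 := conj_mem n26 n34 p162 p163
theorem n45 : InG psi.range m15 := conj_mem n44 (gen_in .f) p164 p165
theorem n46 : InG psi.range m137 := conj_mem n26 n36 p166 p167
theorem n47 : InG psi.range m17 := conj_mem n46 (gen_in .a) p168 p169
theorem n48 : InG psi.range m16 := mul_in n45 n47 p170
theorem n49 : InG psi.range m140 := conj_mem n29 n42 p171 p172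
theorem n50 : InG psi.range m27 := conj_mem n49 n27 p173 p174
theorem n51 : InG psi.range m28 := mul_in n50 n42 p175
theorem n52 : InG psi.range m12 := conj_mem n50 n21 p176 p177
theorem n53 : InG psi.range m13 := conj_mem n51 n21 p178 p179
theorem n54 : InG psi.range m145 := conj_mem n25 n53 p180 p181
theorem n55 : InG psi.range m30 := conj_mem n54 (gen_in .c) p182 p183
theorem n56 : InG psi.range m148 := conj_mem n42 n9 p184 p185
theorem n57 : InG psi.range m32 := conj_mem n56 n40 p186 p187
theorem n58 : InG psi.range m31 := mul_in n55 n57 p188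

theorem root_in_range : ∀ (r : ℕ), r < 12 → ∀ t : F4, InG psi.range (code r t) := by
  intro r hr t
  interval_cases r <;> cases t
  · exact one_in _
  · exact n38
  · exact n37
  · exact n34
  · exact one_in _
  · exact n13
  · exact n18
  · exact n19
  · exact one_in _
  · exact n52
  · exact n53
  · exact n43
  · exact one_in _
  · exact n45
  · exact n48
  · exact n47
  · exact one_in _
  · exact n30
  · exact n27
  · exact n29
  · exact one_in _
  · exact n40
  · exact n39
  · exact n35
  · exact one_in _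
  · exact n9
  · exact n16
  · exact n15
  · exact one_in _
  · exact n50
  · exact n51
  · exact n42
  · exact one_in _
  · exact n55
  · exact n58
  · exact n57
  · exact one_in _
  · exact n32
  · exact n26
  · exact n31
  · exact one_in _
  · exact n22
  · exact n23
  · exact n24
  · exact one_in _
  · exact (gen_in .a)
  · exact (gen_in .f)
  · exact n6

theorem le_range : chevG2.group F4 ≤ psi.range := by
  refine (Subgroup.closure_le _).2 ?_
  rintro g ⟨r, t, hg⟩
  exact mem_of_InG (root_in_range r.val r.isLt t) g (hg.trans (xm_all r t))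

theorem range_eq : psi.range = chevG2.group F4 := le_antisymm range_le le_range

end Cfsg.Agent.Lib.Helper29.G24Main
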